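import Mathlib
set_option autoImplicit false
set_option linter.style.haveILetI false

/-!
Elements of prime order fixing a partition of a set into equal parts.
-/

namespace CfsgLib.UnifPart

variable {α : Type*}

/-- Number of fixed points. -/
noncomputable def fixCount (σ : Equiv.Perm α) : ℕ := Nat.card {x // σ x = x}

theorem fixCount_modEq [Finite α] {r : ℕ} (hr : r.Prime) (σ : Equiv.Perm α) (h : σ ^ r = 1) :
    fixCount σ ≡ Nat.card α [MOD r] := by
  classical
  have := Fintype.ofFinite α
  have : Fact r.Prime := ⟨hr⟩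
  have h1 := Equiv.Perm.card_compl_support_modEq (p := r) (n := 1) (σ := σ) (by rwa [pow_one])
  rw [fixCount, Nat.card_eq_fintype_card, Nat.card_eq_fintype_card, Fintype.card_subtype]
  convert h1 using 2
  ext x
  simp

theorem fixCount_add_support [Fintype α] [DecidableEq α] (σ : Equiv.Perm α) :
    σ.support.card + fixCount σ = Fintype.card α := by
  rw [fixCount, Nat.card_eq_fintype_card, Fintype.card_subtype, ← Finset.card_add_card_compl σ.support]
  congr 2
  ext x
  simp

theorem cycleType_eq [Fintype α] [DecidableEq α] {r : ℕ} (hr : r.Prime) (σ : Equiv.Perm α) (h : σ ^ r = 1) :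
    σ.cycleType = Multiset.replicate (σ.support.card / r) r ∧ r ∣ σ.support.card := by
  have hall : ∀ n ∈ σ.cycleType, n = r := fun n hn => by
    have h1 := (Equiv.Perm.dvd_of_mem_cycleType hn).trans (orderOf_dvd_of_pow_eq_one h)
    have := Equiv.Perm.two_le_of_mem_cycleType hn
    exact ((Nat.dvd_prime hr).1 h1).resolve_left (by omega)
  have hrep := Multiset.eq_replicate_card.2 hall
  have hs : σ.support.card = Multiset.card σ.cycleType * r := by
    rw [← Equiv.Perm.sum_cycleType]
    conv_lhs => rw [hrep]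
    rw [Multiset.sum_replicate, smul_eq_mul]
  refine ⟨?_, ⟨_, hs.trans (mul_comm _ _)⟩⟩
  conv_lhs => rw [hrep]
  rw [hs, Nat.mul_div_cancel _ hr.pos]

theorem isConj_of_fixCount [Finite α] {r : ℕ} (hr : r.Prime) {σ τ : Equiv.Perm α} (h : σ ^ r = 1)
    (h' : τ ^ r = 1) (he : fixCount σ = fixCount τ) : IsConj σ τ := by
  classical
  have := Fintype.ofFinite α
  rw [Equiv.Perm.isConj_iff_cycleType_eq, (cycleType_eq hr σ h).1, (cycleType_eq hr τ h').1]
  have h1 := fixCount_add_support σ
  have h2 := fixCount_add_support τ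
  rw [he] at h1
  rw [show σ.support.card = τ.support.card by omega]

/-- An element with `x` cycles of length `r`. -/
theorem exists_cycles (α : Type*) [Finite α] {r x : ℕ} (hr : r.Prime) (hx : x * r ≤ Nat.card α) :
    ∃ τ : Equiv.Perm α, τ ^ r = 1 ∧ fixCount τ + x * r = Nat.card α := by
  classical
  have := Fintype.ofFinite α
  have : Fact r.Prime := ⟨hr⟩
  let rot : Equiv.Perm (ZMod r) := Equiv.addRight 1
  let d := Nat.card α - x * r
  let e : (Fin x × ZMod r) ⊕ Fin d ≃ α := Fintype.equivOfCardEq (by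
    rw [Fintype.card_sum, Fintype.card_prod, Fintype.card_fin, Fintype.card_fin, ZMod.card,
      ← Nat.card_eq_fintype_card]
    omega)
  let t : Equiv.Perm ((Fin x × ZMod r) ⊕ Fin d) :=
    Equiv.Perm.sumCongr (Equiv.prodCongr (Equiv.refl _) rot) 1
  have ht : ∀ k : ℕ, ∀ y, (t ^ k) y = Sum.elim (fun p => Sum.inl (p.1, p.2 + (k : ZMod r))) Sum.inr y := by
    intro k
    induction k with
    | zero => intro y; rcases y with ⟨i, j⟩ | j <;> simp
    | succ k ih =>
      intro y
      rw [pow_succ', Equiv.Perm.mul_apply, ih]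
      rcases y with ⟨i, j⟩ | j <;> simp [t, rot, add_assoc]
  refine ⟨e.permCongr t, ?_, ?_⟩
  · have : ∀ k : ℕ, (e.permCongr t) ^ k = e.permCongr (t ^ k) := by
      intro k
      induction k with
      | zero => ext; simp
      | succ k ih => rw [pow_succ, ih, pow_succ]; ext; simp
    rw [this]
    ext y
    rw [Equiv.permCongr_apply, ht]
    generalize hy : e.symm y = z
    rcases z with ⟨i, j⟩ | j <;> simp [← hy]
  · have hfix : ∀ y, t y = y ↔ y ∈ Set.range (Sum.inr : Fin d → _) := by
      intro y
      rcases y with ⟨i, j⟩ | j <;> simp [t, rot]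
    have hc : fixCount (e.permCongr t) = d := by
      refine Eq.trans ?_ (show Nat.card (Set.range (Sum.inr : Fin d → (Fin x × ZMod r) ⊕ Fin d)) = d by
        rw [Nat.card_range_of_injective Sum.inr_injective, Nat.card_fin])
      refine Nat.card_congr (e.symm.subtypeEquiv fun y => ?_)
      rw [← hfix, Equiv.permCongr_apply, e.eq_symm_apply]
    rw [hc]
    omega

/-- Distributing `M` cycles among `b` blocks, at most `A` in each. -/
theorem exists_dist (A : ℕ) : ∀ b M : ℕ, M ≤ b * A → ∃ x : Fin b → ℕ, (∀ j, x j ≤ A) ∧ ∑ j, x j = M := by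
  intro b
  induction b with
  | zero => intro M hM; exact ⟨fun j => j.elim0, fun j => j.elim0, by simp; omega⟩
  | succ b ih =>
    intro M hM
    have hM' : M ≤ b * A + A := by rwa [← Nat.succ_mul]
    obtain ⟨x, hx, hxs⟩ := ih (M - min M A) (by omega)
    refine ⟨Fin.cons (min M A) x, fun j => ?_, ?_⟩
    · refine Fin.cases ?_ (fun j => ?_) j
      · simp
      · simpa using hx j
    · rw [Fin.sum_univ_succ]; simp [hxs]

variable {a b r : ℕ}

/-- An invariant uniform partition. -/
def Fixes (a : ℕ) {b : ℕ} (σ : Equiv.Perm α) (f : α → Fin b) : Prop :=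
  (∀ j : Fin b, Nat.card {x : α // f x = j} = a) ∧ ∃ π : Equiv.Perm (Fin b), ∀ x : α, f (σ x) = π (f x)

theorem necessary [Finite α] (hr : r.Prime) (ha : 1 ≤ a) (σ : Equiv.Perm α) (hσ : σ ^ r = 1)
    {f : α → Fin b} (hf : Fixes a σ f) :
    ∃ c, c * r ≤ b ∧ fixCount σ + c * r * a ≤ a * b ∧ b * (a % r) ≤ fixCount σ + c * r * (a % r) := by
  classical
  have := Fintype.ofFinite α
  obtain ⟨hfib, π, hπ⟩ := hf
  have hsurj : ∀ j, ∃ x, f x = j := fun j => by
    by_contra h
    push Not at h
    have : Nat.card {x // f x = j} = 0 := Nat.card_eq_zero.2 (Or.inl ⟨fun x => h x.1 x.2⟩)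
    rw [hfib j] at this
    omega
  have hpow : ∀ k : ℕ, ∀ x, f ((σ ^ k) x) = (π ^ k) (f x) := by
    intro k
    induction k with
    | zero => intro x; simp
    | succ k ih => intro x; rw [pow_succ', pow_succ', Equiv.Perm.mul_apply, Equiv.Perm.mul_apply, hπ, ih]
  have hπr : π ^ r = 1 := Equiv.ext fun j => by
    obtain ⟨x, rfl⟩ := hsurj j
    rw [← hpow, hσ]
    rfl
  obtain ⟨-, c, hc⟩ := cycleType_eq hr π hπr
  have hb := fixCount_add_support π
  rw [Fintype.card_fin, hc] at hb
  refine ⟨c, by rw [mul_comm]; omega, ?_⟩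
  let g : {x // σ x = x} → {j // π j = j} := fun x => ⟨f x.1, by rw [← hπ, x.2]⟩
  let N : {j // π j = j} → ℕ := fun j => Nat.card {x : α // f x = j.1 ∧ σ x = x}
  have hsum : fixCount σ = ∑ j, N j := by
    rw [← Nat.card_sigma, fixCount]
    exact Nat.card_congr
      { toFun := fun x => ⟨g x, x.1, rfl, x.2⟩
        invFun := fun p => ⟨p.2.1, p.2.2.2⟩
        left_inv := fun x => rfl
        right_inv := fun p => by
          obtain ⟨⟨j, hj⟩, x, hx, hx'⟩ := p
          change f x = j at hx
          subst hx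
          rfl }
  have hcardfix : (Finset.univ : Finset {j // π j = j}).card = fixCount π := by
    rw [Finset.card_univ, fixCount, Nat.card_eq_fintype_card]
  have hN : ∀ j, a % r ≤ N j ∧ N j ≤ a := by
    intro j
    let τ : Equiv.Perm {x : α // f x = j.1} := σ.subtypePerm fun x => by
      rw [hπ]
      constructor
      · intro h; exact π.injective (h.trans j.2.symm)
      · intro h; rw [h]; exact j.2
    have hτr : τ ^ r = 1 := by
      rw [Equiv.Perm.subtypePerm_pow]
      ext x
      simp [hσ]
    have hNτ : N j = fixCount τ := by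
      refine Nat.card_congr ?_
      exact
        { toFun := fun x => ⟨⟨x.1, x.2.1⟩, Subtype.ext x.2.2⟩
          invFun := fun x => ⟨x.1.1, x.1.2, congrArg Subtype.val x.2⟩
          left_inv := fun x => rfl
          right_inv := fun x => rfl }
    have h1 := fixCount_modEq hr τ hτr
    rw [hfib, ← hNτ] at h1
    refine ⟨?_, ?_⟩
    · rw [← h1]; exact Nat.mod_le _ _
    · rw [hNτ, ← hfib j.1]
      exact Nat.card_le_card_of_injective Subtype.val Subtype.val_injective
  have hlow := Finset.card_nsmul_le_sum Finset.univ N (a % r) fun j _ => (hN j).1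
  have hhigh := Finset.sum_le_card_nsmul Finset.univ N a fun j _ => (hN j).2
  rw [smul_eq_mul, hcardfix, ← hsum] at hlow
  rw [smul_eq_mul, hcardfix, ← hsum] at hhigh
  rw [← hb]
  constructor <;> nlinarith

theorem sufficient [Finite α] (hr : r.Prime) (hcard : Nat.card α = a * b) {c M : ℕ} (hc : c * r ≤ b)
    (hM : M ≤ (b - c * r) * (a / r)) (σ : Equiv.Perm α) (hσ : σ ^ r = 1)
    (hfix : fixCount σ + M * r + c * r * a = a * b) : ∃ f : α → Fin b, Fixes a σ f := by
  classical
  have := Fintype.ofFinite α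
  have : Fact r.Prime := ⟨hr⟩
  set b' := b - c * r with hb'
  obtain ⟨x, hx, hxs⟩ := exists_dist (a / r) b' M hM
  have hxa : ∀ j, x j * r ≤ Nat.card (Fin a) := fun j => by
    rw [Nat.card_fin]
    exact (Nat.mul_le_mul_right r (hx j)).trans (Nat.div_mul_le_self a r)
  choose τ hτ1 hτ2 using fun j => exists_cycles (Fin a) hr (hxa j)
  let π : Equiv.Perm ((Fin c × ZMod r) ⊕ Fin b') :=
    Equiv.Perm.sumCongr (Equiv.prodCongr (Equiv.refl _) (Equiv.addRight 1)) 1
  let T : (Fin c × ZMod r) ⊕ Fin b' → Equiv.Perm (Fin a) := Sum.elim (fun _ => 1) τ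
  let s : Equiv.Perm (((Fin c × ZMod r) ⊕ Fin b') × Fin a) := Equiv.prodShear π T
  have hπk : ∀ k : ℕ, ∀ y, (π ^ k) y = Sum.elim (fun p => Sum.inl (p.1, p.2 + (k : ZMod r))) Sum.inr y := by
    intro k
    induction k with
    | zero => intro y; rcases y with ⟨i, j⟩ | j <;> simp
    | succ k ih =>
      intro y
      rw [pow_succ', Equiv.Perm.mul_apply, ih]
      rcases y with ⟨i, j⟩ | j <;> simp [π, add_assoc]
  have hsk : ∀ k : ℕ, ∀ p, (s ^ k) p = ((π ^ k) p.1, ((T p.1) ^ k) p.2) := by
    intro k
    induction k with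
    | zero => intro p; simp
    | succ k ih =>
      intro p
      rw [pow_succ', Equiv.Perm.mul_apply, ih, pow_succ' π, pow_succ' (T p.1)]
      have hT : T ((π ^ k) p.1) = T p.1 := by
        rw [hπk]; rcases p.1 with ⟨i, j⟩ | j <;> rfl
      change (π ((π ^ k) p.1), T ((π ^ k) p.1) ((T p.1 ^ k) p.2)) = _
      rw [hT]
      rfl
  have hs : s ^ r = 1 := Equiv.ext fun p => by
    rw [hsk, hπk]
    rcases p with ⟨⟨i, j⟩ | j, y⟩
    · simp [T]
    · simp [T, hτ1]
  have hsfix : fixCount s + M * r = b' * a := by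
    have e : {p // s p = p} ≃ Σ j : Fin b', {y // τ j y = y} :=
      { toFun := fun p => match p with
          | ⟨(Sum.inl (i, j), y), h⟩ => absurd h (by
              simp [s, π, Equiv.prodShear])
          | ⟨(Sum.inr j, y), h⟩ => ⟨j, y, by
              have := congrArg Prod.snd h
              simpa [s, T, Equiv.prodShear] using this⟩
        invFun := fun q => ⟨(Sum.inr q.1, q.2.1), by
          simp [s, π, T, Equiv.prodShear, q.2.2]⟩
        left_inv := fun p => by
          rcases p with ⟨⟨⟨i, j⟩ | j, y⟩, h⟩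
          · exact absurd h (by simp [s, π, Equiv.prodShear])
          · rfl
        right_inv := fun q => rfl }
    rw [fixCount, Nat.card_congr e, Nat.card_sigma]
    have : ∑ j, (Nat.card {y // τ j y = y} + x j * r) = b' * a := by
      refine (Finset.sum_congr rfl fun j _ => hτ2 j).trans ?_
      simp
    rwa [Finset.sum_add_distrib, ← Finset.sum_mul, hxs] at this
  let eb : (Fin c × ZMod r) ⊕ Fin b' ≃ Fin b := Fintype.equivOfCardEq (by
    rw [Fintype.card_sum, Fintype.card_prod, Fintype.card_fin, Fintype.card_fin, Fintype.card_fin,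
      ZMod.card]
    omega)
  let e : ((Fin c × ZMod r) ⊕ Fin b') × Fin a ≃ α := Fintype.equivOfCardEq (by
    rw [Fintype.card_prod, Fintype.card_congr eb, Fintype.card_fin, Fintype.card_fin,
      ← Nat.card_eq_fintype_card, hcard, mul_comm])
  have he : fixCount (e.permCongr s) = fixCount s := (Nat.card_congr (e.subtypeEquiv fun p => by
    rw [Equiv.permCongr_apply, Equiv.symm_apply_apply, e.injective.eq_iff])).symm
  have hes : (e.permCongr s) ^ r = 1 := by
    have : ∀ k : ℕ, (e.permCongr s) ^ k = e.permCongr (s ^ k) := by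
      intro k
      induction k with
      | zero => ext; simp
      | succ k ih => rw [pow_succ, ih, pow_succ]; ext; simp
    rw [this, hs]
    ext
    simp
  have hbb : b' * a + c * r * a = a * b := by
    rw [← Nat.add_mul, show b' + c * r = b by omega, mul_comm]
  obtain ⟨u, hu⟩ := isConj_iff.1 (isConj_of_fixCount hr hes hσ (by omega))
  refine ⟨fun z => eb (e.symm (u⁻¹ z)).1, fun j => ?_, eb.permCongr π, fun z => ?_⟩
  · have : {z // eb (e.symm (u⁻¹ z)).1 = j} ≃ Fin a :=
      { toFun := fun z => (e.symm (u⁻¹ z.1)).2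
        invFun := fun y => ⟨u (e (eb.symm j, y)), by simp⟩
        left_inv := fun z => Subtype.ext (by
          have h : eb.symm j = (e.symm (u⁻¹ z.1)).1 := by rw [eb.symm_apply_eq, z.2]
          simp [h])
        right_inv := fun y => by simp }
    rw [Nat.card_congr this, Nat.card_fin]
  · rw [← hu]
    simp [s, Equiv.prodShear]

/-- The number theory. -/
theorem arith (ha : 2 ≤ a) (hb : 1 ≤ b) (hr : 2 ≤ r) (hab : r ≤ a * b) :
    (∀ m, 1 ≤ m → m * r ≤ a * b →
        ∃ c, c * r ≤ b ∧ c * a ≤ m ∧ m * r + b * (a % r) ≤ a * b + c * r * (a % r)) ↔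
      (r ≤ a ∧ (a % r = 0 ∨ (b % r = 0 ∧ a % r = 1) ∨
        (a % r ≠ 0 ∧ b % r ≠ 0 ∧ (b % r) * (a % r) < r ∧
          (b < r ∨ (b % r + r) * (a % r) ≤ (b % r) * a + r)))) := by
  obtain ⟨A, hA⟩ : ∃ A, A = a / r := ⟨_, rfl⟩
  obtain ⟨B, hB⟩ : ∃ B, B = b / r := ⟨_, rfl⟩
  obtain ⟨l, hl⟩ : ∃ l, l = a % r := ⟨_, rfl⟩
  obtain ⟨k, hk⟩ : ∃ k, k = b % r := ⟨_, rfl⟩
  have ea : a = A * r + l := by rw [hA, hl, Nat.div_add_mod']
  have eb : b = B * r + k := by rw [hB, hk, Nat.div_add_mod']
  have hlr : l < r := hl ▸ Nat.mod_lt _ (by omega)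
  have hkr : k < r := hk ▸ Nat.mod_lt _ (by omega)
  rw [← hl, ← hk]
  constructor
  · intro h
    have hra : r ≤ a := by
      by_contra hlt
      have hla : l = a := hl.trans (Nat.mod_eq_of_lt (by omega))
      obtain ⟨c, _, hc1, hc2⟩ := h 1 le_rfl (by omega)
      have hc0 : c = 0 := by
        rcases Nat.eq_zero_or_pos c with h0 | h0
        · exact h0
        · exfalso; nlinarith
      subst hc0
      rw [hla] at hc2
      linarith
    refine ⟨hra, ?_⟩
    rcases Nat.eq_zero_or_pos l with hl0 | hl0
    · exact Or.inl hl0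
    right
    have hA1 : 1 ≤ A := by
      rcases Nat.eq_zero_or_pos A with h0 | h0
      · subst h0; omega
      · exact h0
    -- the largest number of cycles
    have hkl : k * l < r := by
      by_contra hge
      push Not at hge
      obtain ⟨c, hc1, _, hc3⟩ := h (b * A + B * l + 1) (by omega) (by
        rw [ea, eb]; linarith)
      have : c ≤ B := by
        by_contra hc
        have : (B + 1) * r ≤ c * r := Nat.mul_le_mul_right r (by omega)
        linarith
      have : c * r * l ≤ B * r * l := by gcongr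
      rw [ea] at hc3
      linarith
    rcases Nat.eq_zero_or_pos B with hB0 | hB0
    · subst hB0
      exact Or.inr ⟨by omega, by omega, hkl, Or.inl (by omega)⟩
    have hstep : l ≤ k * A + 1 := by
      by_contra hgt
      push Not at hgt
      have hBa : 2 ≤ B * a := le_trans ha (Nat.le_mul_of_pos_left a hB0)
      obtain ⟨c, hc1, hc2, hc3⟩ := h (B * a - 1) (by omega) (by
        calc (B * a - 1) * r ≤ B * a * r := Nat.mul_le_mul_right r (Nat.sub_le _ _)
          _ ≤ a * b := by rw [eb]; linarith [Nat.zero_le (a * k)])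
      obtain ⟨B', rfl⟩ : ∃ B', B = B' + 1 := ⟨B - 1, by omega⟩
      have hcB : c ≤ B' := by
        by_contra hc
        have : (B' + 1) * a ≤ c * a := Nat.mul_le_mul_right a (by omega)
        omega
      have h1 : c * r * l ≤ B' * r * l := by gcongr
      have h2 : (B' + 1) * a - 1 + 1 = (B' + 1) * a := by omega
      generalize (B' + 1) * a - 1 = m at hc3 h2
      have h3 : (k * A + 2) * r ≤ l * r := Nat.mul_le_mul_right r hgt
      have h2' : (m + 1) * r = (B' + 1) * (A * r + l) * r := by rw [h2, ← ea]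
      rw [ea, eb] at hc3
      linarith
    rcases Nat.eq_zero_or_pos k with hk0 | hk0
    · subst hk0; exact Or.inl ⟨rfl, by omega⟩
    · refine Or.inr ⟨by omega, by omega, hkl, Or.inr ?_⟩
      have : l * r ≤ (k * A + 1) * r := Nat.mul_le_mul_right r hstep
      rw [ea]
      linarith
  · rintro ⟨hra, h⟩ m hm hmr
    have hsome : k * l < r ∧ (B = 0 ∨ l ≤ k * A + 1) := by
      rcases h with h | ⟨h1, h2⟩ | ⟨_, _, h3, h4⟩
      · subst h; exact ⟨by simp; omega, Or.inr (by omega)⟩
      · subst h1 h2; exact ⟨by simp; omega, Or.inr (by omega)⟩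
      · refine ⟨h3, ?_⟩
        rcases h4 with h4 | h4
        · exact Or.inl (hB.trans (Nat.div_eq_of_lt h4))
        · refine Or.inr ?_
          rw [ea] at h4
          have h5 : r * l ≤ r * (k * A + 1) := by linarith
          exact Nat.le_of_mul_le_mul_left h5 (by omega)
    obtain ⟨hkl, hstep⟩ := hsome
    have hmax : m ≤ b * A + B * l := by
      by_contra hgt
      push Not at hgt
      have : (b * A + B * l + 1) * r ≤ m * r := Nat.mul_le_mul_right r hgt
      rw [ea, eb] at hmr
      rw [eb] at this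
      linarith
    by_cases hc : B * a ≤ m
    · refine ⟨B, by omega, hc, ?_⟩
      have : m * r ≤ (b * A + B * l) * r := Nat.mul_le_mul_right r hmax
      rw [ea]
      linarith
    · push Not at hc
      rcases hstep with h0 | hstep
      · subst h0; simp at hc
      have hmc := Nat.div_mul_le_self m a
      set c := m / a with hcdef
      have hm2 : m + 1 ≤ (c + 1) * a := by
        rw [add_one_mul]
        have h5 := Nat.mod_lt m (show 0 < a by omega)
        have h6 := Nat.div_add_mod' m a
        rw [← hcdef] at h6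
        omega
      have hcB : c + 1 ≤ B := by
        by_contra hlt
        have : B * a ≤ c * a := Nat.mul_le_mul_right a (by omega)
        omega
      refine ⟨c, ?_, hmc, ?_⟩
      · have : c * r ≤ B * r := Nat.mul_le_mul_right r (by omega)
        omega
      obtain ⟨d, rfl⟩ : ∃ d, B = c + 1 + d := ⟨B - (c + 1), by omega⟩
      have h3 : l * r ≤ (k * A + 1) * r := Nat.mul_le_mul_right r hstep
      have h4 : (m + 1) * r ≤ (c + 1) * a * r := Nat.mul_le_mul_right r hm2
      rw [ea] at h4 ⊢
      rw [eb]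
      linarith [Nat.zero_le (d * r * r * A)]

end CfsgLib.UnifPart
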